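import Cfsg.Agent.H707.Eigen
import Cfsg.Agent.BabyM.AbsFinal

/-!
# A nontrivial rational-valued irreducible character of the Baby Monster: the abstract part

The `4371`-dimensional module restricted to `2^{1+22}` contains a linear character with multiplicity one.
-/

set_option autoImplicit false

namespace Cfsg.Agent.H707.RowB

open Cfsg Cfsg.Agent.H707.OddLift Cfsg.Agent.H707.Eigen Cfsg.Agent.BabyM Cfsg.Agent.BabyM.Model

variable {W : Type} [AddCommGroup W] [Module ℚ W]

/-- The natural representation of a group of automorphisms. -/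
def natRep (G : Subgroup (W ≃ₗ[ℚ] W)) : Representation ℚ G W where
  toFun g := ((g : W ≃ₗ[ℚ] W) : W →ₗ[ℚ] W)
  map_one' := rfl
  map_mul' _ _ := rfl

theorem natRep_apply (G : Subgroup (W ≃ₗ[ℚ] W)) (g : G) (w : W) : natRep G g w = (g : W ≃ₗ[ℚ] W) w := rfl

theorem model {M : BData W} {K₀ : Type} [Group K₀] (A : BAll M K₀) : HasRat M.G := by
  classical
  have hfin : Finite M.G := A.finite_G
  have hfd : FiniteDimensional ℚ W := Module.finite_of_finrank_pos (by rw [A.rep.finrank_eq]; norm_num)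
  have hCG : ∀ g ∈ M.C, g ∈ M.G := fun g hg => Subgroup.subset_closure (Or.inl hg)
  have hQC := A.grp.Q_le
  let Q : Subgroup M.G := M.Q.subgroupOf M.G
  let l : M.G → ℚ := fun g => if (g : W ≃ₗ[ℚ] W) * M.t₀ = M.t₀ * (g : W ≃ₗ[ℚ] W) then 1 else -1
  have he0 : M.e₀ ≠ 0 := by
    intro h
    have := A.rep.e₀_norm
    rw [h, map_zero] at this
    norm_num at this
  have he : ∀ q ∈ Q, natRep M.G q M.e₀ = l q • M.e₀ := by
    intro q hq
    rw [natRep_apply]
    by_cases h : (q : W ≃ₗ[ℚ] W) * M.t₀ = M.t₀ * (q : W ≃ₗ[ℚ] W)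
    · simp only [l, if_pos h, one_smul]
      exact A.rep.Q_e₀_pos _ hq h
    · simp only [l, if_neg h, neg_smul, one_smul]
      exact A.rep.Q_e₀_neg _ hq h
  obtain ⟨y, hyQ, hy⟩ := A.grp.exists_noncomm M.t₀ A.rep.t₀_mem A.rep.t₀_ne A.rep.t₀_ne_z
  have hy' : ¬ y * M.t₀ = M.t₀ * y := fun h => hy h.symm
  let y' : M.G := ⟨y, hCG _ (hQC hyQ)⟩
  have hly : l y' = -1 := if_neg hy'
  refine hasRat_of_eigen (natRep M.G) Q l M.e₀ he0 he (fun x hx => ?_) ⟨y', ?_⟩
  · have hzx : M.z x = x := by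
      have h1 := hx ⟨M.z, hCG _ (hQC A.grp.z_mem)⟩ A.grp.z_mem
      have h2 : l ⟨M.z, hCG _ (hQC A.grp.z_mem)⟩ = 1 := if_pos (A.grp.z_comm _ (hQC A.rep.t₀_mem)).symm
      rw [h2, one_smul] at h1
      exact h1
    obtain ⟨u, hu, e, hee, rfl⟩ := A.rep.fix_z x hzx
    refine eigen_of_span (natRep M.G) Q l M.e₀ he0 he ((M.U : Set W) ∪ {x | ∃ g ∈ M.C, x = g M.e₀}) ?_ ?_ hx
    · rintro b (hb | ⟨g, hg, rfl⟩)
      · right
        refine ⟨y', hyQ, 1, ?_, by rw [hly]; norm_num⟩
        rw [natRep_apply, one_smul]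
        exact A.Q_U y hyQ b hb
      · by_cases h1 : g M.e₀ = M.e₀
        · left; exact ⟨1, by rw [one_smul, h1]⟩
        by_cases h2 : g M.e₀ = -M.e₀
        · left; exact ⟨-1, by rw [neg_smul, one_smul, h2]⟩
        right
        obtain ⟨q, hq, hq1, hq2⟩ := A.rep.sep g hg h1 h2
        refine ⟨⟨q, hCG _ (hQC hq)⟩, hq, -1, ?_, ?_⟩
        · rw [natRep_apply, neg_smul, one_smul]
          exact hq2
        · have h3 := he ⟨q, hCG _ (hQC hq)⟩ hq
          rw [natRep_apply] at h3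
          change q M.e₀ = _ at h3
          rw [hq1] at h3
          have h4 : (1 : ℚ) • M.e₀ = l ⟨q, hCG _ (hQC hq)⟩ • M.e₀ := by rw [one_smul]; exact h3
          rw [← smul_left_injective ℚ he0 h4]
          norm_num
    · apply Submodule.add_mem
      · exact Submodule.subset_span (Or.inl hu)
      · exact Submodule.span_mono (Set.subset_union_right) hee
  · rw [natRep_apply]
    intro h
    have h1 := A.rep.Q_e₀_neg y hyQ hy'
    have h2 : M.e₀ = -M.e₀ := h.symm.trans h1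
    have h3 : (2 : ℚ) • M.e₀ = 0 := by
      rw [two_smul]
      nth_rewrite 2 [h2]
      exact add_neg_cancel _
    exact he0 ((smul_eq_zero.1 h3).resolve_left two_ne_zero)

end Cfsg.Agent.H707.RowB
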