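import Cfsg.Agent.H707.RowB
import Cfsg.Agent.BabyM.Instance
import Cfsg.Agent.BM.KHAll

/-!
# A nontrivial rational-valued irreducible character of the Baby Monster
-/

set_option autoImplicit false

namespace Cfsg.Agent.H707.RowBInst

open Cfsg Cfsg.Agent.H707.OddLift Cfsg.Agent.BabyM

theorem row {K : Type*} [Group K] [Finite K] (h : Spor.IsoB K) : HasRat K := by
  obtain ⟨e⟩ := h
  have : Finite Inst.M.G := Instance.all.finite_G
  exact HasRat.of_equiv (e.trans BM.KHAll.iso) (RowB.model Instance.all)

end Cfsg.Agent.H707.RowBInst
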