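import Cfsg.Agent.H707.IndexTwo
import Cfsg.Agent.SporRec.Fi24Index
import Cfsg.Agent.S1691

/-!
# Nontrivial rational-valued irreducible character of Fi24'
-/

set_option autoImplicit false

namespace Cfsg.Agent.H707.RowFi24

open Cfsg Cfsg.Agent.H707.OddLift Cfsg.Agent.H707.IndexTwo MulAction

theorem fi24 {K : Type*} [Group K] [Finite K] (h : Spor.IsoFi24' K) : HasRat K := by
  obtain ⟨e⟩ := h
  have hfin' : Finite (commutator Spor.Fi24) := Finite.of_equiv _ e.toEquiv
  have hfin : Finite Spor.Fi24 := by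
    have h2 : (commutator Spor.Fi24).index ≠ 0 := by rw [S1691.result]; norm_num
    have h3 : Nat.card Spor.Fi24 ≠ 0 := by
      rw [← (commutator Spor.Fi24).card_mul_index]
      exact mul_ne_zero Nat.card_pos.ne' h2
    exact Nat.finite_of_card_ne_zero h3
  obtain ⟨hi, -, q₁, q₂, h1, h2⟩ := SporRec.Fi24Index.index_and_suborbits
  apply HasRat.of_equiv e
  exact hasRat_index_two (commutator Spor.Fi24) _ S1691.result h1 h2 (by norm_num) (by norm_num) (by norm_num)
    (by rw [hi]) (by rw [hi]; norm_num) (by rw [hi]; norm_num) (by rw [hi]; norm_num)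

end Cfsg.Agent.H707.RowFi24
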