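import Cfsg.Agent.H707.Eigen
import Cfsg.Agent.MonsterX.KLift

/-!
# A nontrivial rational-valued irreducible character of the Monster: the abstract part

The `196884`-dimensional module restricted to `2^{1+24}` contains a linear character with multiplicity one.
-/

set_option autoImplicit false

namespace Cfsg.Agent.H707.RowM

open Cfsg Cfsg.Agent.H707.OddLift Cfsg.Agent.H707.Eigen Cfsg.Agent.MonsterX.KSide Cfsg.Agent.MonsterX.KLift

universe u

variable {G : Type u} {V P W : Type*} [Group G] [AddCommGroup V] [Module ℚ V]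
  [DistribMulAction G V] [SMulCommClass G ℚ V] [Group P] [AddCommGroup W] [Module ℚ W]

/-- The representation of a distributive action. -/
def actRep (G V : Type*) [Group G] [AddCommGroup V] [Module ℚ V] [DistribMulAction G V] [SMulCommClass G ℚ V] :
    Representation ℚ G V where
  toFun g :=
    { toFun := fun v => g • v
      map_add' := smul_add g
      map_smul' := fun c v => smul_comm g c v }
  map_one' := LinearMap.ext fun v => one_smul G v
  map_mul' g h := LinearMap.ext fun v => mul_smul g h v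

theorem actRep_apply (g : G) (v : V) : actRep G V g v = g • v := rfl

theorem model [Finite G] [FiniteDimensional ℚ V] (M : KS G V P W) {θ : leechLattice → P} (L : Lift M θ) :
    HasRat G := by
  classical
  obtain ⟨v0, hv0⟩ : ∃ v : leechLattice, nrm v = 32 := by
    have h := min_ncard
    obtain ⟨v, hv⟩ := Set.nonempty_of_ncard_ne_zero (by rw [h]; norm_num : {v : leechLattice | nrm v = 32}.ncard ≠ 0)
    exact ⟨v, hv⟩
  obtain ⟨x, hx, -⟩ := M.lam_surj v0 hv0
  have he0 : M.X x ≠ 0 := by
    intro h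
    have := M.B_XX x hx
    rw [h, map_zero] at this
    norm_num at this
  let l : G → ℚ := fun g => M.B (M.X x) (g • M.X x)
  have hXne : ∀ c : ℚ, M.B (M.X x) (c • M.X x) = c := by
    intro c
    rw [map_smul, M.B_XX x hx, smul_eq_mul, mul_one]
  have hfix : ∀ p, p * x * p⁻¹ = x → M.ι p • M.X x = M.X x := by
    intro p hp
    rw [M.ι_X p x hx, hp]
  have hflip : ∀ p, p * x * p⁻¹ = M.zc * x → M.ι p • M.X x = -M.X x := by
    intro p hp
    rw [M.ι_X p x hx, hp, M.X_z x hx]
  have hlfix : ∀ p, p * x * p⁻¹ = x → l (M.ι p) = 1 := by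
    intro p hp
    show M.B (M.X x) (M.ι p • M.X x) = 1
    rw [hfix p hp, M.B_XX x hx]
  have hlflip : ∀ p, p * x * p⁻¹ = M.zc * x → l (M.ι p) = -1 := by
    intro p hp
    show M.B (M.X x) (M.ι p • M.X x) = -1
    rw [hflip p hp, map_neg, M.B_XX x hx]
  have he : ∀ q ∈ M.ι.range, actRep G V q (M.X x) = l q • M.X x := by
    rintro _ ⟨p, rfl⟩
    rw [actRep_apply]
    rcases M.comm_or p x with h | h
    · rw [hfix p h, hlfix p h, one_smul]
    · rw [hflip p h, hlflip p h, neg_smul, one_smul]
  obtain ⟨y, hy⟩ := exists_flip L x hx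
  refine hasRat_of_eigen (actRep G V) M.ι.range l (M.X x) he0 he (fun w hw => ?_) ⟨M.ι y, ?_⟩
  · refine eigen_of_span (actRep G V) M.ι.range l (M.X x) he0 he _ ?_ (by rw [M.span]; trivial : w ∈ _) hw
    rintro b ((⟨v, rfl⟩ | ⟨t, ht, rfl⟩) | ⟨f, v, rfl⟩)
    · right
      refine ⟨M.ι y, ⟨y, rfl⟩, 1, ?_, by rw [hlflip y hy]; norm_num⟩
      rw [actRep_apply, one_smul, M.ι_u]
    · by_cases h1 : t = x
      · left; exact ⟨1, by rw [one_smul, h1]⟩
      by_cases h2 : t = M.zc * x
      · left; exact ⟨-1, by rw [neg_smul, one_smul, h2, M.X_z x hx]⟩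
      right
      by_contra hcon
      push Not at hcon
      -- every element flips both or none
      have h3 : ∀ p, (p * x * p⁻¹ = x ∧ p * t * p⁻¹ = t) ∨ (p * x * p⁻¹ = M.zc * x ∧ p * t * p⁻¹ = M.zc * t) := by
        intro p
        rcases M.comm_or p x with h | h <;> rcases M.comm_or p t with h' | h'
        · exact Or.inl ⟨h, h'⟩
        · exfalso
          have h4 := hcon (M.ι p) ⟨p, rfl⟩ (-1) (by
            rw [actRep_apply, M.ι_X p t ht, h', M.X_z t ht, neg_smul, one_smul])
          rw [hlfix p h] at h4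
          norm_num at h4
        · exfalso
          have h4 := hcon (M.ι p) ⟨p, rfl⟩ 1 (by
            rw [actRep_apply, M.ι_X p t ht, h', one_smul])
          rw [hlflip p h] at h4
          norm_num at h4
        · exact Or.inr ⟨h, h'⟩
      have h4 : ∀ p, (x * t⁻¹) * p = p * (x * t⁻¹) := by
        intro p
        have e : p * (x * t⁻¹) * p⁻¹ = (p * x * p⁻¹) * (p * t * p⁻¹)⁻¹ := by group
        have e2 : p * (x * t⁻¹) * p⁻¹ = x * t⁻¹ := by
          rcases h3 p with ⟨h, h'⟩ | ⟨h, h'⟩
          · rw [e, h, h']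
          · rw [e, h, h', mul_inv_rev, M.zc_inv, M.zc_comm x, mul_assoc, ← M.zc_comm, M.zc_zc]
        exact (mul_inv_eq_iff_eq_mul.1 e2).symm
      rcases L.center _ h4 with h5 | h5
      · exact h1 (mul_inv_eq_one.1 h5).symm
      · apply h2
        rw [mul_inv_eq_iff_eq_mul] at h5
        rw [h5, M.zc_zc]
    · right
      refine ⟨M.ι M.zc, ⟨M.zc, rfl⟩, -1, ?_, ?_⟩
      · rw [actRep_apply, M.ι_Θ, M.ρ_z, map_neg, LinearMap.neg_apply, neg_smul, one_smul]
      · rw [hlfix M.zc (by rw [M.zc_comm x, mul_assoc, mul_inv_cancel, mul_one])]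
        norm_num
  · rw [actRep_apply, hflip y hy]
    intro h
    have h3 : (2 : ℚ) • M.X x = 0 := by
      rw [two_smul]
      nth_rewrite 1 [← h]
      exact neg_add_cancel _
    exact he0 ((smul_eq_zero.1 h3).resolve_left two_ne_zero)

end Cfsg.Agent.H707.RowM
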