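import Cfsg.Agent.H707.RowM
import Cfsg.Agent.MonsterX.KDone
import Cfsg.Agent.MonsterX.InstanceFinal
import Cfsg.Agent.MonsterP.Equiv

/-!
# A nontrivial rational-valued irreducible character of the Monster
-/

set_option autoImplicit false

namespace Cfsg.Agent.H707.RowMInst

open Cfsg Cfsg.Agent.H707.OddLift Cfsg.Agent.MonsterX Cfsg.Agent.MonsterX.Space

theorem finG : Finite ↥InstData.M.G := MainBasic.G_finite InstanceFinal.mOrbit

theorem concG : HasRat ↥InstData.M.G := by
  have hf : Finite ↥InstData.M.G := finG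
  have hfd : FiniteDimensional ℚ V := Module.finite_of_finrank_pos (by rw [finrank_eq]; norm_num)
  exact RowM.model KDone.K KDone.lft

theorem row {K : Type*} [Group K] [Finite K] (h : Spor.IsoM K) : HasRat K := by
  obtain ⟨e⟩ := h
  obtain ⟨f⟩ := MonsterP.Equiv.equiv
  have hf : Finite ↥InstData.M.G := finG
  exact HasRat.of_equiv (e.trans f) concG

end Cfsg.Agent.H707.RowMInst
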