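import Cfsg.Agent.H707.Block
import Cfsg.Agent.NotCT.Orders

/-!
# Sporadic groups with a Sylow 5-subgroup of order 5: nontrivial rational-valued irreducible characters
-/

set_option autoImplicit false

namespace Cfsg.Agent.H707.RowsOrder

open Cfsg Cfsg.Agent.H707.OddLift Cfsg.Agent.H707.Block Cfsg.Agent.NotCT

variable {K : Type*} [Group K] [Finite K] [IsSimpleGroup K]

theorem of_card {n : ℕ} (h : Nat.card K = n) (h5 : 5 ∣ n) (h25 : ¬ 25 ∣ n) (hn : 5 < n) : HasRat K := by
  refine hasRat_of_simple_five ?_ (by rwa [h]) (by rwa [h])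
  intro hp
  rw [h] at hp
  have := (Nat.prime_dvd_prime_iff_eq (by norm_num) hp).1 h5
  omega

theorem m11 (h : Spor.IsoM11 K) : HasRat K := of_card (Orders.m11 h) (by norm_num) (by norm_num) (by norm_num)

theorem m12 (h : Spor.IsoM12 K) : HasRat K := of_card (Orders.m12 h) (by norm_num) (by norm_num) (by norm_num)

theorem m22 (h : Spor.IsoM22 K) : HasRat K := of_card (Orders.m22 h) (by norm_num) (by norm_num) (by norm_num)

theorem m23 (h : Spor.IsoM23 K) : HasRat K := of_card (Orders.m23 h) (by norm_num) (by norm_num) (by norm_num)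

theorem m24 (h : Spor.IsoM24 K) : HasRat K := of_card (Orders.m24 h) (by norm_num) (by norm_num) (by norm_num)

theorem j1 (h : Spor.IsoJ1 K) : HasRat K := of_card (Orders.j1 h) (by norm_num) (by norm_num) (by norm_num)

theorem j3 (h : Spor.IsoJ3 K) : HasRat K := of_card (Orders.j3 h) (by norm_num) (by norm_num) (by norm_num)

theorem j4 (h : Spor.IsoJ4 K) : HasRat K := of_card (Orders.j4 h) (by norm_num) (by norm_num) (by norm_num)

theorem on (h : Spor.IsoON K) : HasRat K := of_card (Orders.on h) (by norm_num) (by norm_num) (by norm_num)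

end Cfsg.Agent.H707.RowsOrder
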